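import Mathlib
import Cfsg.Agent.Wz.Defs
import Cfsg.Agent.Wj.Dbl3

/-! The doubles of `E` and `F` are elementary abelian and normalise each other. -/

set_option autoImplicit false
set_option linter.unusedSectionVars false

namespace Cfsg.Agent.Wz

open Cfsg.Agent.Loc.Mss Cfsg.Agent.Gold Cfsg.Agent.Wr Subgroup

universe u

variable {G : Type u} [Group G] [Finite G]

theorem EF.symm {t : G} {E F : Subgroup G} (h : EF t E F) : EF t F E := by
  refine ⟨h.pF, h.pE, fun x hx e he => ?_, fun x hx e he c => (h.cE e he x hx c.symm).symm, fun g c hg => ?_,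
    h.neF, h.neE⟩
  · have := inv_mem (h.cm e he x hx)
    rwa [mul_inv_rev, mul_inv_rev, mul_inv_rev, h.pE.inv he, h.pF.inv hx, ← mul_assoc, ← mul_assoc, inf_comm] at this
  · rw [sup_comm, and_comm]
    exact h.cU g c (inf_comm F E ▸ hg)

theorem exists_ab3 {t : G} {V : Subgroup G} (h : Pre t V) (hs : ∀ e ∈ h.Dt, e * e = 1 ∨ e * e = ph t e)
    (ho : ∀ w ∈ V, ∃ e ∈ h.Dt, ph t e = w) (h8 : 4 < Nat.card V) : ∃ W, Ab3 t V W :=
  (Wj.exists_ab3 h hs ho h8).imp fun _ k => ⟨k.1, k.2.1, k.2.2⟩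

namespace EFL

variable {t : G} {E F W W' : Subgroup G}

theorem le_Dt (h : Ab t E W) {d : G} (hd : d ∈ W) : d ∈ h.toPre.Dt :=
  ⟨fun w hw => h.cm d hd w (h.le hw), h.mem d hd⟩

theorem ab_ker (h : Ab t E W) {d : G} (hd : d ∈ W) (e : ph t d = 1) : d ∈ E :=
  (h.toPre.ker (le_Dt h hd) e).resolve_right fun k => h.ntD ((mul_mem_cancel_left hd).1 (h.le k))

theorem conjE (h : EF t E F) {x : G} (hx : x ∈ F) (e : G) (he : e ∈ E) : x * e * x⁻¹ ∈ E := by
  have := mul_mem (inv_mem he) (h.cm e he x hx).1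
  rw [h.pF.inv hx]
  rwa [show e⁻¹ * (e * x * e * x) = x * e * x by group] at this

theorem FE (h : EF t E F) : F ≤ 𝐍[E] := fun _ hx => mem_norm_of_cj_le (cj_le_iff.2 (conjE h hx))

theorem conjW (h : EF t E F) (hW : Ab3 t E W) {x w : G} (hx : x ∈ F) (hw : w ∈ W) : x * w * x⁻¹ ∈ W :=
  hW.nrm x (h.pF.tV x hx) (conjE h hx) w hw

theorem comm_U (h : EF t E F) {e x : G} (he : e ∈ E) (hx : x ∈ F) : x * e * x⁻¹ * e ∈ E ⊓ F := by
  rw [h.pF.inv hx, inf_comm]; exact h.symm.cm x hx e he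

theorem lift (h : EF t E F) (hW : Ab3 t E W) (hW' : Ab3 t F W') {u : G} (hu : u ∈ E ⊓ F) :
    ∃ d ∈ W, ph t d = u ∧ (d ∈ W' ∨ d * t ∈ W') := by
  obtain ⟨w, hw, e⟩ := hW.ab.onto u hu.1
  obtain ⟨w', hw', e'⟩ := hW'.ab.onto u hu.2
  have c : w⁻¹ * w' * t = t * (w⁻¹ * w') := by
    have : w' * t * w'⁻¹ = w * t * w⁻¹ := by rw [conj_t h.pE.tt, conj_t h.pE.tt, e, e']
    calc _ = w⁻¹ * (w' * t * w'⁻¹) * w' := by group
      _ = _ := by rw [this]; group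
  rcases h.cU _ c (mul_mem (inv_mem fun v hv => hW.ab.cm v (hW.ab.le hv.1) w hw)
    fun v hv => hW'.ab.cm v (hW'.ab.le hv.2) w' hw') with k | k | k
  · obtain ⟨a, ha, x, hx, k⟩ := (mem_sup_norm (FE h)).1 k
    refine ⟨w * a, mul_mem hw (hW.ab.le ha), by rw [ph_mul_of_comm (h.pE.tV a ha), e], .inl ?_⟩
    rw [show w * a = w * (a * x) * x⁻¹ by group, k, mul_inv_cancel_left]
    exact mul_mem hw' (inv_mem (hW'.ab.le hx))
  · obtain ⟨a, ha, x, hx, k⟩ := (mem_sup_norm (FE h)).1 k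
    refine ⟨w * a, mul_mem hw (hW.ab.le ha), by rw [ph_mul_of_comm (h.pE.tV a ha), e], .inr ?_⟩
    rw [show w * a * t = w * (a * x) * (x⁻¹ * t) by group, k, h.pF.inv hx, h.pF.tV x hx,
      show w * (w⁻¹ * w' * t) * (t * x) = w' * (t * t) * x by group, h.pE.tt, mul_one]
    exact mul_mem hw' (hW'.ab.le hx)
  · obtain ⟨a, ha, -, -, -, -, n, -⟩ := h.neE
    have := mem_cj.1 (k.1.ge ha)
    rw [show (w⁻¹ * w')⁻¹ * a * (w⁻¹ * w') = w'⁻¹ * (w * a * w⁻¹) * w' by group, hW.ab.cm w hw a (hW.ab.le ha),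
      mul_inv_cancel_right] at this
    have k := hW'.ab.cm w' hw' _ (hW'.ab.le this)
    rw [show w' * (w'⁻¹ * a * w') = a * w' by group, mul_left_inj] at k
    exact (n (k ▸ this)).elim

theorem lift' (h : EF t E F) (hW : Ab3 t E W) (hW' : Ab3 t F W') {u : G} (hu : u ∈ E ⊓ F) :
    ∃ d ∈ W, ph t d = u ∧ ∀ x ∈ F, Commute x d := by
  obtain ⟨d, hd, e, k⟩ := lift h hW hW' hu
  refine ⟨d, hd, e, fun x hx => k.elim (hW'.ab.cm x (hW'.ab.le hx) d) fun k => ?_⟩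
  simpa using (show Commute x (d * t) from hW'.ab.cm x (hW'.ab.le hx) _ k).mul_right
    (show Commute x t from h.pF.tV x hx).inv_right

theorem sq_one (h : EF t E F) (hW : Ab3 t E W) (hW' : Ab3 t F W') : ∀ w ∈ W, w * w = 1 := by
  refine hW.sq.resolve_right fun hs => ?_
  obtain ⟨b, hb, x, hx, x', hx', n0, n1, n2, n3⟩ := h.neE
  obtain ⟨w, hw, e⟩ := hW.ab.onto b hb
  have A := hW.ab
  have key : ∀ x ∈ F, x ∉ E → ∃ c ∈ W, (∀ y ∈ F, Commute y c) ∧ x * w * x⁻¹ = c * b * w := fun x hx n => by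
    have m1 := conjW h hW hx hw
    have m2 := mul_mem m1 (inv_mem hw)
    have e1 : ph t (x * w * x⁻¹ * w⁻¹) = x * b * x⁻¹ * b := by
      rw [A.toPre.mul (le_Dt A m1) (le_Dt A (inv_mem hw)), ph_conj (h.pF.tV x hx), A.toPre.ph_inv (le_Dt A hw), e]
    have e2 : x * (x * w * x⁻¹ * w⁻¹) * x⁻¹ = (x * w * x⁻¹ * w⁻¹)⁻¹ := by
      calc _ = x * x * w * (x * x)⁻¹ * (x * w⁻¹ * x⁻¹) := by group
        _ = _ := by rw [h.pF.sq x hx]; group
    obtain ⟨d, hd, e3, c⟩ := lift' h hW hW' (comm_U h hb hx)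
    obtain ⟨a, ha⟩ : ∃ a, a = x * w * x⁻¹ * w⁻¹ := ⟨_, rfl⟩
    rw [← ha] at m2 e1 e2
    have m3 : a * d⁻¹ ∈ E := ab_ker A (mul_mem m2 (inv_mem hd)) (by
      rw [A.toPre.mul (le_Dt A m2) (le_Dt A (inv_mem hd)), A.toPre.ph_inv (le_Dt A hd), e1, e3,
        h.pE.sq _ (comm_U h hb hx).1])
    have e4 : b * (a * d⁻¹) * x = x * (b * (a * d⁻¹)) := by
      refine (mul_inv_eq_iff_eq_mul.1 ?_).symm
      calc _ = x * b * x⁻¹ * (x * a * x⁻¹) * (x * d⁻¹ * x⁻¹) := by group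
        _ = x * b * x⁻¹ * b * (a * a)⁻¹ * (b⁻¹ * (a * d⁻¹)) := by
          rw [e2, (c x hx).inv_right.eq, mul_assoc (x * b * x⁻¹) b, (show Commute b (a * a) from
            A.cm b (A.le hb) _ (mul_mem m2 m2)).inv_right.eq]
          group
        _ = _ := by rw [hs a m2, e1, h.pE.inv hb]; group
    have m4 := (h.cE _ (mul_mem hb m3) x hx e4).resolve_right n
    refine ⟨b * (a * d⁻¹) * d, mul_mem (A.le (mul_mem hb m3)) hd, fun y hy =>
      (show Commute y _ from h.pF.comm y hy _ m4).mul_right (c y hy), ?_⟩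
    rw [show b * (a * d⁻¹) * d = b * a by group, A.cm b (A.le hb) a m2, mul_assoc a, h.pE.sq b hb, ha]
    group
  obtain ⟨c, hc, k1, e1⟩ := key x hx n1
  obtain ⟨c', hc', k2, e2⟩ := key x' hx' n2
  have e3 : c * (x' * b * x'⁻¹) * (c' * b * w) = c' * (x * b * x⁻¹) * (c * b * w) := by
    calc _ = x' * (c * b * w) * x'⁻¹ := by rw [← e2, mul_assoc c b, ← mul_assoc x', (k1 x' hx').eq]; group
      _ = x' * x * w * (x' * x)⁻¹ := by rw [← e1]; group
      _ = x * (c' * b * w) * x⁻¹ := by rw [← e2, h.pF.comm x' hx' x hx]; group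
      _ = _ := by rw [← e1, mul_assoc c' b, ← mul_assoc x, (k2 x hx).eq]; group
  have e4 : x' * b * x'⁻¹ = x * b * x⁻¹ := by
    rw [A.cm c hc _ (A.le (conjE h hx' b hb)), A.cm c' hc' _ (A.le (conjE h hx b hb)), mul_assoc _ c, mul_assoc _ c',
      mul_assoc c', mul_assoc c, ← mul_assoc c, ← mul_assoc c', A.cm c hc c' hc'] at e3
    exact mul_right_cancel e3
  refine (h.cE b hb _ (mul_mem hx hx') ?_).elim n0 n3
  calc b * (x * x') = x⁻¹ * (x * b * x⁻¹) * (x * x) * x' := by group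
    _ = _ := by rw [← e4, h.pF.sq x hx, h.pF.inv hx]; group

/-- The doubles, before the commutator relation. -/
structure D0 (t : G) (E F W W' : Subgroup G) : Prop where
  ef : EF t E F
  aE : Ab3 t E W
  aF : Ab3 t F W'
  dE : Dbl t E W
  dF : Dbl t F W'

namespace D0

variable (h : D0 t E F W W')
include h

theorem symm : D0 t F E W' W := ⟨h.ef.symm, h.aF, h.aE, h.dF, h.dE⟩

theorem memE (d : G) (hd : d ∈ 𝐂[E]) (h1 : ph t d ∈ E) (h2 : ph t d ≠ 1) (h3 : d * d = 1) : d ∈ W := by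
  obtain ⟨w, hw, e⟩ := h.dE.onto _ h1
  have m := le_Dt h.aE.ab hw
  rcases h.aE.ab.toPre.eq_cases m ⟨fun v hv => (hd v hv).symm, h1⟩ e with ⟨v, hv, rfl⟩ | ⟨v, hv, rfl⟩
  · exact mul_mem hw (h.dE.le hv)
  · rw [h.aE.ab.toPre.sq_mul_V (mul_mem m h.aE.ab.toPre.t_mem) hv, h.aE.ab.toPre.sq_mul_t m, h.dE.sq w hw, one_mul,
      e] at h3
    exact (h2 h3).elim

theorem onto (u : G) (hu : u ∈ E ⊓ F) : ∃ d ∈ W ⊓ W', ph t d = u := by
  obtain ⟨d, hd, e, k | k⟩ := lift h.ef h.aE h.aF hu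
  · exact ⟨d, ⟨hd, k⟩, e⟩
  · have := h.dF.sq _ k
    rw [h.aE.ab.toPre.sq_mul_t (le_Dt h.aE.ab hd), h.dE.sq d hd, one_mul, e] at this
    exact ⟨1, one_mem _, (ph_one h.dE.tt).trans this.symm⟩

theorem U_le : E ⊓ F ≤ W ⊓ W' := inf_le_inf h.dE.le h.dF.le

theorem comm_F {d f : G} (hd : d ∈ W) (hf : f ∈ F) : ∃ g ∈ W ⊓ W', d * f * d = f * g := by
  refine ⟨f * d * f⁻¹ * d, ?_, by rw [← mul_assoc, ← mul_assoc, ← mul_assoc, h.ef.pF.sq f hf, h.ef.pF.inv hf, one_mul]⟩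
  by_cases n : f ∈ E
  · rw [h.dE.comm f (h.dE.le n) d hd, mul_inv_cancel_right, h.dE.sq d hd]
    exact one_mem _
  have m1 := conjW h.ef h.aE hf hd
  have m2 := mul_mem m1 hd
  obtain ⟨g, hg, e⟩ := h.onto _ (comm_U h.ef (h.dE.mem d hd) hf)
  have m3 := h.dE.mul_mem_of_eq m2 hg.1 (by rw [h.dE.mul m1 hd, ph_conj (h.ef.pF.tV f hf), e])
  have c : Commute (f * d * f⁻¹ * d) f := by
    refine (mul_inv_eq_iff_eq_mul.1 ?_).symm
    calc _ = f * f * d * (f * f)⁻¹ * (f * d * f⁻¹) := by group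
      _ = _ := by rw [h.ef.pF.sq f hf, h.dE.comm _ m1 d hd]; group
  exact (mul_mem_cancel_right hg).1 (h.U_le ⟨m3, (h.ef.cE _ m3 f hf
    (c.mul_left (h.dF.comm g hg.2 f (h.dF.le hf)))).resolve_right n⟩)

theorem cent_E {d v e : G} (hd : d ∈ W) (hv : v ∈ W') (he : e ∈ E) :
    v * d * v * d * e = e * (v * d * v * d) := by
  obtain ⟨g, hg, e1⟩ := h.symm.comm_F hv he
  have h1 := h.dE.comm d hd _ (mul_mem (h.dE.le he) hg.2)
  have h2 := h.dF.sq v hv
  calc _ = v * (d * (v * e * v)) * (v * d) := by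
        rw [mul_assoc _ d, h.dE.comm d hd e (h.dE.le he)]
        simp only [mul_assoc]
        rw [← mul_assoc v v, h2, one_mul]
    _ = _ := by
        rw [e1, h1, ← e1]
        simp only [mul_assoc]
        rw [← mul_assoc v v, h2, one_mul]

theorem cm {d v : G} (hd : d ∈ W) (hv : v ∈ W') : d * v * d * v ∈ W ⊓ W' := by
  have tt := h.dE.tt
  have ti := h.dE.ti
  have dd := h.dE.sq d hd
  have vv := h.dF.sq v hv
  have he := h.dE.mem d hd
  have hf := h.dF.mem v hv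
  have hi : (v * d * v * d)⁻¹ = d * v * d * v := by
    simp only [mul_inv_rev, h.dE.inv hd, h.dF.inv hv, mul_assoc]
  have cE : ∀ e ∈ E, d * v * d * v * e = e * (d * v * d * v) := fun e he =>
    hi ▸ (Commute.inv_left (h.cent_E hd hv he)).eq
  have cF : ∀ f ∈ F, d * v * d * v * f = f * (d * v * d * v) := fun f hf => h.symm.cent_E hv hd hf
  have h1 : ph t (d * v * d * v) ∈ W ⊓ W' := by
    obtain ⟨g1, hg1, e1⟩ := h.comm_F hd hf
    obtain ⟨g2, hg2, e2⟩ := h.symm.comm_F hv he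
    have t1 := h.dE.tdt hd
    have t2 := h.dF.tdt hv
    obtain ⟨e, ee⟩ : ∃ e, e = ph t d := ⟨_, rfl⟩
    obtain ⟨f, ef⟩ : ∃ f, f = ph t v := ⟨_, rfl⟩
    rw [← ee] at he e2 t1
    rw [← ef] at hf e1 t2
    have hfW : f ∈ W' := h.dF.le hf
    have h2 : f * e * f * e ∈ E ⊓ F := inf_comm F E ▸ h.ef.symm.cm f hf e he
    have h3 : ph t (d * v * d * v) = f * e * f * e * (g2 * g1) := by
      rw [ph, ← hi, inv_inv, hi]
      calc _ = d * v * d * v * ((t * v * t) * (t * d * t) * (t * v * t) * (t * d * t)) := by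
            simp only [mul_assoc]
            rw [← mul_assoc t t, ← mul_assoc t t, ← mul_assoc t t, tt, one_mul, one_mul, one_mul]
        _ = d * (v * (d * f * d)) * e * v * f * d * e := by
            rw [t1, t2]
            simp only [mul_assoc]
            rw [← mul_assoc v v, vv, one_mul]
        _ = f * (d * (v * e * v)) * f * d * e := by
            rw [h.dF.comm v hv _ (e1 ▸ mul_mem hfW hg1.2)]
            simp only [mul_assoc]
            rw [← mul_assoc d d, dd, one_mul]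
        _ = f * e * g2 * (d * f * d) * e := by
            rw [h.dE.comm d hd _ (e2 ▸ mul_mem (h.dE.le he) hg2.2), e2]
            simp only [mul_assoc]
        _ = _ := by
            rw [e1, mul_assoc _ g2, ← mul_assoc g2, h.dF.comm g2 hg2.1 f hfW, mul_assoc _ e (g2 * g1),
              ← h.dE.comm _ (mul_mem hg2.2 hg1.1) e (h.dE.le he)]
            simp only [mul_assoc]
    rw [h3]
    exact mul_mem (h.U_le h2) (mul_mem ⟨hg2.2, hg2.1⟩ hg1)
  obtain ⟨u, hu⟩ : ∃ u, u = d * v * d * v := ⟨_, rfl⟩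
  rw [← hu] at h1 cE cF hi ⊢
  have h2 : ph t (ph t u) = 1 := by
    rw [ph_eq_one_iff tt]
    conv => rhs; rw [← h.dE.inv h1.1]
    simp only [ph, mul_inv_rev, inv_inv, ti, mul_assoc, tt, mul_one]
    rw [← mul_assoc t t, tt, one_mul]
  have h3 : ph t u ∈ E ⊓ F := ⟨h.dE.ker h1.1 h2, h.dF.ker h1.2 h2⟩
  obtain ⟨g, hg, eg⟩ := h.onto _ h3
  have gE : ∀ e ∈ E, u * g * e = e * (u * g) := fun e he =>
    Commute.mul_left (cE e he) (h.dE.comm g hg.1 e (h.dE.le he))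
  obtain ⟨-, -, y, hy, -, -, -, ny, -⟩ := h.ef.neE
  have gF : Commute (u * g) y := Commute.mul_left (cF _ hy) (h.dF.comm g hg.2 _ (h.dF.le hy))
  rcases h.dE.cen (u * g) ((ph_eq_one_iff tt).1 (by
    rw [ph_mul tt, eg, cE _ h3.1, mul_inv_cancel_right, h.ef.pE.sq _ h3.1])) gE with h4 | h4
  · exact (mul_mem_cancel_right hg).1 (h.U_le ⟨h4, (h.ef.cE _ h4 y hy gF).resolve_right ny⟩)
  exfalso
  have h5 : u * g * t ∈ E ⊓ F :=
    ⟨h4, (h.ef.cE _ h4 y hy (gF.mul_left (h.ef.pF.tV y hy).symm)).resolve_right ny⟩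
  have h6 : u * t ∈ W ⊓ W' := by
    have := mul_mem (h.U_le h5) (show t * g * t ∈ W ⊓ W' from ⟨h.dE.tdt_mem hg.1, h.dF.tdt_mem hg.2⟩)
    rwa [← mul_assoc, ← mul_assoc, mul_assoc _ t t, tt, mul_one, mul_assoc _ g g, h.dE.sq g hg.1, mul_one] at this
  obtain ⟨k, hk⟩ : ∃ k, k = u * t := ⟨_, rfl⟩
  rw [← hk] at h6
  have h7 : u = k * t := by rw [hk, mul_assoc, tt, mul_one]
  have h8 : d * u * d = u⁻¹ := by
    rw [inv_eq_iff_eq_inv.2 hi.symm, hu]
    simp only [← mul_assoc, dd, one_mul]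
  have h9 : ph t d = ph t k := by
    have t1 := conj_t tt d
    rw [h.dE.inv hd] at t1
    rw [h7, mul_inv_rev, ti, h.dE.inv h6.1, ← mul_assoc, h.dE.comm d hd k h6.1, mul_assoc k, mul_assoc k,
      t1] at h8
    refine mul_left_cancel (a := k) ?_
    rw [← h.dE.tdt h6.1, ← h8, mul_assoc, mul_assoc, tt, mul_one]
  have h10 := h.dE.mul_mem_of_eq hd h6.1 h9
  obtain ⟨g2, hg2, e2⟩ := h.symm.comm_F hv h10
  have h11 : v * d * v ∈ W := by
    have := mul_mem (e2 ▸ mul_mem (h.dE.le h10) hg2.2) h6.1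
    rwa [mul_assoc _ v, h.dF.comm v hv k h6.2, ← mul_assoc, mul_assoc v, mul_assoc d, h.dE.sq k h6.1,
      mul_one] at this
  have h12 : u ∈ W := by
    rw [hu, mul_assoc, mul_assoc, ← mul_assoc v]; exact mul_mem hd h11
  exact h.dE.nt ((mul_mem_cancel_left h12).1 (hk ▸ h6.1))

end D0

end EFL

theorem EF.dw {t : G} {E F W W' : Subgroup G} (h : EF t E F) (hW : Ab3 t E W) (hW' : Ab3 t F W') :
    DW t E F W W' :=
  have k : EFL.D0 t E F W W' :=
    ⟨h, hW, hW', hW.ab.dbl (EFL.sq_one h hW hW'), hW'.ab.dbl (EFL.sq_one h.symm hW' hW)⟩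
  ⟨h, hW, hW', k.dE, k.dF, k.memE, k.symm.memE, k.onto, fun _ hd _ hv => k.cm hd hv⟩

theorem DW.symm {t : G} {E F W W' : Subgroup G} (h : DW t E F W W') : DW t F E W' W :=
  h.ef.symm.dw h.aF h.aE

end Cfsg.Agent.Wz
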