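import Mathlib
import Cfsg.Agent.Wz.EFL
import Cfsg.Agent.Wr.Avg

/-! The commutator of lifts to different factors, and the action `1 + ω (x - 1)`. -/

set_option autoImplicit false
set_option linter.unusedSectionVars false

namespace Cfsg.Agent.Wz

open Cfsg.Agent.Loc.Mss Cfsg.Agent.Gold Cfsg.Agent.Wr Subgroup

universe u

variable {G : Type u} [Group G] [Finite G]

/-- The commutator of lifts to different factors. -/
def gam (t : G) (θ η : G → G) (e x : G) : G := θ e * (t * η x * t) * θ e * (t * η x * t)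

/-- Compatible sections over `E` and `F`. -/
structure Sec2 (t : G) (E F W W' : Subgroup G) (θ η : G → G) : Prop where
  dw : DW t E F W W'
  sE : Sec t E W θ
  sF : Sec t F W' η
  agree : ∀ u ∈ E ⊓ F, θ u = η u
  eE : ∀ x ∈ F, ∀ e ∈ E, x * θ e * x⁻¹ = θ (x * e * x⁻¹)
  eF : ∀ e ∈ E, ∀ x ∈ F, e * η x * e⁻¹ = η (e * x * e⁻¹)

namespace G4

theorem sq_l {a : G} (h : a * a = 1) (x : G) : a * (a * x) = x := by rw [← mul_assoc, h, one_mul]

theorem sw_l {a b : G} (h : a * b = b * a) (x : G) : a * (b * x) = b * (a * x) := by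
  rw [← mul_assoc, h, mul_assoc]

variable {t : G} {E W : Subgroup G} {θ : G → G}

theorem tθt (hD : Dbl t E W) (hs : Sec t E W θ) {e : G} (he : e ∈ E) : t * θ e * t = θ e * e := by
  rw [hD.tdt (hs.mem e he), hs.ph e he]

theorem θ_one (hs : Sec t E W θ) : θ 1 = 1 := by
  have := hs.mul 1 (one_mem _) 1 (one_mem _)
  rwa [mul_one, left_eq_mul] at this

theorem diag (hD : Dbl t E W) (hs : Sec t E W θ) {e : G} (he : e ∈ E) : θ e * (t * θ e * t) = e := by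
  rw [← hD.ph_eq (hs.mem e he), hs.ph e he]

theorem tmul (hD : Dbl t E W) (a b : G) : t * (a * b) * t = t * a * t * (t * b * t) := by
  simp only [mul_assoc, sq_l hD.tt]

/-- The coordinates on the double. -/
def Φ (t : G) (θ : G → G) (v : G × G) : G := θ v.1 * (t * θ v.2 * t)

theorem phi4_mem {x : G} (hx : x ∈ 𝐍[E]) {v : G × G} (h1 : v.1 ∈ E) (h2 : v.2 ∈ E) :
    (phi4 x v).1 ∈ E ∧ (phi4 x v).2 ∈ E :=
  ⟨mul_mem h1 (mul_mem (conj_mem_of_norm hx h2) h2),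
    mul_mem (mul_mem h2 (mul_mem (conj_mem_of_norm hx h1) h1)) (mul_mem (conj_mem_of_norm hx h2) h2)⟩

theorem Φ_act (hD : Dbl t E W) (hs : Sec t E W θ) {g x : G} (h : Act4 t E θ g x) (hx : x ∈ 𝐍[E]) {v : G × G}
    (h1 : v.1 ∈ E) (h2 : v.2 ∈ E) : g * Φ t θ v * g⁻¹ = Φ t θ (phi4 x v) := by
  have u1 := mul_mem (conj_mem_of_norm hx h1) h1
  have u2 := mul_mem (conj_mem_of_norm hx h2) h2
  rw [Φ, ← conj_mul, (h _ h1).1, (h _ h2).2, Φ, phi4]
  dsimp only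
  rw [hs.mul _ h1 _ u2, hs.mul _ (mul_mem h2 u1) _ u2, hs.mul _ h2 _ u1, tmul hD, tmul hD]
  have a1 := hD.tdt_mem (hs.mem _ u1)
  have a2 := hD.tdt_mem (hs.mem _ h2)
  have a3 := hs.mem _ u2
  generalize t * θ (x * v.1 * x⁻¹ * v.1) * t = a at a1 ⊢
  generalize t * θ v.2 * t = b at a2 ⊢
  generalize t * θ (x * v.2 * x⁻¹ * v.2) * t = d
  generalize θ (x * v.2 * x⁻¹ * v.2) = c at a3 ⊢
  simp only [mul_assoc]
  rw [sw_l (hD.comm _ a2 _ a3), sw_l (hD.comm _ a1 _ a3), sw_l (hD.comm _ a1 _ a2)]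

theorem Φ_swap (hD : Dbl t E W) (hs : Sec t E W θ) {v : G × G} (h1 : v.1 ∈ E) (h2 : v.2 ∈ E) :
    t * Φ t θ v * t = Φ t θ v.swap := by
  rw [Φ, Φ, tmul hD, Prod.fst_swap, Prod.snd_swap, hD.comm _ (hs.mem _ h2) _ (hD.tdt_mem (hs.mem _ h1))]
  simp only [mul_assoc, sq_l hD.tt, hD.tt, mul_one]

theorem ph_Φ (hD : Dbl t E W) (hs : Sec t E W θ) {v : G × G} (h1 : v.1 ∈ E) (h2 : v.2 ∈ E) :
    ph t (Φ t θ v) = v.1 * v.2 := by
  rw [Φ, tθt hD hs h2, hD.mul (hs.mem _ h1) (mul_mem (hs.mem _ h2) (hD.le h2)), hD.mul (hs.mem _ h2) (hD.le h2),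
    hs.ph _ h1, hs.ph _ h2, hD.ph_V h2, mul_one]

theorem fold (hD : Dbl t E W) (hs : Sec t E W θ) (l : List (G × G))
    (hl : ∀ v ∈ l, Act4 t E θ v.1 v.2 ∧ v.2 ∈ 𝐍[E]) : ∃ g : G, ∀ v : G × G, v.1 ∈ E → v.2 ∈ E →
      ((l.foldr (fun v => phi4 v.2) v).1 ∈ E ∧ (l.foldr (fun v => phi4 v.2) v).2 ∈ E) ∧
        g * Φ t θ v * g⁻¹ = Φ t θ (l.foldr (fun v => phi4 v.2) v) := by
  induction l with
  | nil => exact ⟨1, fun v h1 h2 => ⟨⟨h1, h2⟩, by simp⟩⟩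
  | cons w l ih =>
    obtain ⟨g, hg⟩ := ih fun v hv => hl v (List.mem_cons_of_mem _ hv)
    obtain ⟨a1, a2⟩ := hl w List.mem_cons_self
    refine ⟨w.1 * g, fun v h1 h2 => ?_⟩
    obtain ⟨⟨k1, k2⟩, e⟩ := hg v h1 h2
    refine ⟨phi4_mem a2 k1 k2, ?_⟩
    rw [List.foldr_cons, ← Φ_act hD hs a1 a2 k1 k2, ← e]
    group

end G4

open G4

namespace Sec2

variable {t : G} {E F W W' : Subgroup G} {θ η : G → G} (h : Sec2 t E F W W' θ η)
include h

theorem flip : Sec2 t F E W' W η θ :=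
  ⟨h.dw.symm, h.sF, h.sE, fun u hu => (h.agree u ⟨hu.2, hu.1⟩).symm, h.eF, h.eE⟩

theorem θ_mem {u : G} (hu : u ∈ E ⊓ F) : θ u ∈ W ⊓ W' := ⟨h.sE.mem u hu.1, h.agree u hu ▸ h.sF.mem u hu.2⟩

theorem cm_flip {e x : G} (he : e ∈ E) (hx : x ∈ F) : x * e * x * e = e * x * e * x := by
  have h1 := h.dw.dE.inv (h.dw.dE.le (h.dw.ef.cm e he x hx).1)
  rw [← h1]
  simp only [mul_inv_rev, h.dw.dE.inv (h.dw.dE.le he), h.dw.dF.inv (h.dw.dF.le hx), mul_assoc]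

theorem cm_flip' {a b : G} (ha : a ∈ W) (hb : b ∈ W') : b * a * b * a = a * b * a * b := by
  have h1 := h.dw.dE.inv (h.dw.cm a ha b hb).1
  rw [← h1]
  simp only [mul_inv_rev, h.dw.dE.inv ha, h.dw.dF.inv hb, mul_assoc]

theorem xθx {e x : G} (he : e ∈ E) (hx : x ∈ F) : x * θ e * x = θ e * θ (e * x * e * x) := by
  have h1 := h.eE x hx e he
  rw [h.dw.dF.inv (h.dw.dF.le hx)] at h1
  rw [h1, ← h.sE.mul e he _ (h.dw.ef.cm e he x hx).1]
  simp only [mul_assoc, sq_l (h.dw.ef.pE.sq e he)]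

theorem eηe {e x : G} (he : e ∈ E) (hx : x ∈ F) : e * η x * e = η x * θ (e * x * e * x) := by
  rw [h.flip.xθx hx he, h.cm_flip he hx, h.agree _ (h.dw.ef.cm e he x hx)]

theorem gam_eq {e x : G} (he : e ∈ E) (hx : x ∈ F) :
    gam t θ η e x = θ e * η x * θ e * η x * θ (e * x * e * x) := by
  have h1 := h.xθx he hx
  have h2 := h.θ_mem (h.dw.ef.cm e he x hx)
  have h3 := h.sF.mem x hx
  have h4 := h.dw.dF.le hx
  rw [gam, tθt h.dw.dF h.sF hx]
  calc _ = θ e * η x * (x * θ e * x) * η x := by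
        simp only [mul_assoc]
        rw [h.dw.dF.comm _ h3 _ h4]
    _ = _ := by
        rw [h1]
        generalize θ (e * x * e * x) = k at h2 ⊢
        simp only [mul_assoc]
        rw [h.dw.dF.comm _ h2.2 _ h3]

theorem gam_W {e x : G} (he : e ∈ E) (hx : x ∈ F) : gam t θ η e x ∈ W ⊓ W' :=
  h.dw.cm _ (h.sE.mem e he) _ (h.dw.dF.tdt_mem (h.sF.mem x hx))

theorem gam_mem {e x : G} (he : e ∈ E) (hx : x ∈ F) : gam t θ η e x ∈ E ⊓ F := by
  have h1 := h.gam_W he hx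
  have h2 : ph t (gam t θ η e x) = 1 := by
    have h3 := h.θ_mem (h.dw.ef.cm e he x hx)
    have h4 := h.sE.mem e he
    have h5 : t * gam t θ η e x * t = gam t θ η e x := by
      conv_rhs => rw [h.gam_eq he hx]
      rw [gam, tmul h.dw.dE, tmul h.dw.dE, tmul h.dw.dE, tθt h.dw.dE h.sE he,
        show t * (t * η x * t) * t = η x by simp only [mul_assoc, sq_l h.dw.dE.tt, h.dw.dE.tt, mul_one]]
      calc _ = θ e * (e * η x * e) * θ e * η x := by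
            simp only [mul_assoc]
            rw [sw_l (h.dw.dE.comm _ h4 _ (h.dw.dE.le he)) (η x)]
        _ = _ := by
            rw [h.eηe he hx]
            generalize θ (e * x * e * x) = k at h3 ⊢
            simp only [mul_assoc]
            rw [sw_l (h.dw.dE.comm _ h3.1 _ h4), h.dw.dF.comm _ h3.2 _ (h.sF.mem x hx)]
    rw [h.dw.dE.ph_eq h1.1, h5, h.dw.dE.sq _ h1.1]
  exact ⟨h.dw.dE.ker h1.1 h2, h.dw.dF.ker h1.2 h2⟩

theorem gam_mul_left {e e' x : G} (he : e ∈ E) (he' : e' ∈ E) (hx : x ∈ F) :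
    gam t θ η (e * e') x = gam t θ η e x * gam t θ η e' x := by
  have h1 := h.gam_W he' hx
  have h2 := h.sE.mem e he
  have h3 := h.dw.dF.tdt_mem (h.sF.mem x hx)
  rw [h.dw.dE.comm _ (h.gam_W he hx).1 _ h1.1]
  calc _ = θ e * gam t θ η e' x * ((t * η x * t) * θ e * (t * η x * t)) := by
        rw [gam, gam, h.sE.mul e he e' he']
        generalize t * η x * t = b at h3 ⊢
        simp only [mul_assoc]
        rw [sq_l (h.dw.dF.sq b h3), sw_l (h.dw.dE.comm _ h2 _ (h.sE.mem e' he')) b]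
    _ = _ := by
        rw [h.dw.dE.comm _ h2 _ h1.1, gam, gam]
        simp only [mul_assoc]

theorem gam_mul_right {e x x' : G} (he : e ∈ E) (hx : x ∈ F) (hx' : x' ∈ F) :
    gam t θ η e (x * x') = gam t θ η e x * gam t θ η e x' := by
  have h1 := h.gam_W he hx'
  have h2 := h.sE.mem e he
  have h3 := h.dw.dF.tdt_mem (h.sF.mem x hx)
  have h4 := h.dw.dF.tdt_mem (h.sF.mem x' hx')
  calc _ = θ e * (t * η x * t) * θ e * (gam t θ η e x' * (t * η x * t)) := by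
        rw [gam, gam, h.sF.mul x hx x' hx', tmul h.dw.dF]
        generalize t * η x * t = b at h3 ⊢
        generalize t * η x' * t = b' at h4 ⊢
        simp only [mul_assoc]
        rw [sq_l (h.dw.dE.sq _ h2), h.dw.dF.comm _ h4 _ h3]
    _ = _ := by
        rw [h.dw.dF.comm _ h1.2 _ h3]
        conv_rhs => rw [gam]
        simp only [mul_assoc]

theorem gam_left {u x : G} (hu : u ∈ E ⊓ F) (hx : x ∈ F) : gam t θ η u x = 1 := by
  have h1 := (h.θ_mem hu).2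
  have h3 := h.dw.dF.tdt_mem (h.sF.mem x hx)
  rw [gam, mul_assoc]
  exact h.dw.dF.sq _ (mul_mem h1 h3)

theorem gam_right {e u : G} (he : e ∈ E) (hu : u ∈ E ⊓ F) : gam t θ η e u = 1 := by
  rw [gam, mul_assoc, ← h.agree u hu]
  exact h.dw.dE.sq _ (mul_mem (h.sE.mem e he) (h.dw.dE.tdt_mem (h.sE.mem u hu.1)))

theorem gam_symm {e x : G} (he : e ∈ E) (hx : x ∈ F) : gam t η θ x e = gam t θ η e x := by
  rw [h.flip.gam_eq hx he, h.gam_eq he hx, h.cm_flip he hx, h.agree _ (h.dw.ef.cm e he x hx),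
    h.cm_flip' (h.sE.mem e he) (h.sF.mem x hx)]

theorem comm_of {e x : G} (he : e ∈ E) (hx : x ∈ F) (h1 : gam t θ η e x = 1) :
    θ e * (t * η x * t) = t * η x * t * θ e := by
  rw [gam, mul_assoc] at h1
  rw [eq_inv_of_mul_eq_one_left h1, mul_inv_rev, h.dw.dE.inv (h.sE.mem e he),
    h.dw.dF.inv (h.dw.dF.tdt_mem (h.sF.mem x hx))]

theorem act4 {x : G} (hx : x ∈ F) (h4 : ∀ e ∈ E, gam t θ η e x = e * x * e * x) : Act4 t E θ (η x) x := by
  intro p hp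
  have hu := h.dw.ef.cm p hp x hx
  have hk := h.θ_mem hu
  have ha := h.sE.mem p hp
  have hc := h.sF.mem x hx
  have e1 := h4 p hp
  have e2 := h.eηe hp hx
  rw [h.gam_eq hp hx] at e1
  rw [h.dw.dF.inv (h.dw.dF.le hx), h.dw.dF.inv hc, h.cm_flip hp hx, tθt h.dw.dE h.sE hu.1, tθt h.dw.dE h.sE hp]
  generalize p * x * p * x = u at hu hk e1 e2 ⊢
  have e3 : η x * θ p * η x = θ p * (θ u * u) := by
    calc _ = θ p * (θ p * η x * θ p * η x * θ u * θ u) := by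
          simp only [mul_assoc, sq_l (h.dw.dE.sq _ ha), h.dw.dE.sq _ hk.1, mul_one]
      _ = _ := by rw [e1, h.dw.dE.comm _ hk.1 _ (h.dw.dE.le hu.1)]
  have e4 : η x * p * η x = p * θ u := by
    calc _ = p * (p * η x * p * η x) := by simp only [mul_assoc, sq_l (h.dw.ef.pE.sq p hp)]
      _ = _ := by rw [e2, mul_assoc, ← h.dw.dF.comm _ hc _ hk.2, sq_l (h.dw.dF.sq _ hc)]
  refine ⟨e3, ?_⟩
  calc _ = η x * θ p * η x * (η x * p * η x) := by simp only [mul_assoc, sq_l (h.dw.dF.sq _ hc)]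
    _ = _ := by
      rw [e3, e4, mul_assoc (θ p), h.dw.dE.comm _ (mul_mem hk.1 (h.dw.dE.le hu.1)) _ (mul_mem (h.dw.dE.le hp) hk.1)]
      simp only [mul_assoc]

end Sec2

omit [Finite G] in
theorem Act4.conj {t : G} {E : Subgroup G} {θ : G → G} {g x n : G} (h : Act4 t E θ g x) (hn : n * t = t * n)
    (hE : n ∈ 𝐍[E]) (hx : x ∈ 𝐍[E]) (he : ∀ e ∈ E, n * θ e * n⁻¹ = θ (n * e * n⁻¹)) :
    Act4 t E θ (n * g * n⁻¹) (n * x * n⁻¹) := by
  intro p hp
  obtain ⟨q, hq, rfl⟩ : ∃ q ∈ E, n * q * n⁻¹ = p := ⟨_, conj_mem_of_norm' hE hp, by group⟩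
  have ht : ∀ y, t * (n * y * n⁻¹) * t = n * (t * y * t) * n⁻¹ := fun y => by
    calc _ = t * n * y * (n⁻¹ * t) := by group
      _ = _ := by rw [← hn, (Commute.inv_left hn).eq]; group
  rw [show n * x * n⁻¹ * (n * q * n⁻¹) * (n * x * n⁻¹)⁻¹ * (n * q * n⁻¹) = n * (x * q * x⁻¹ * q) * n⁻¹ by group,
    ← he _ hq, ← he _ (mul_mem (conj_mem_of_norm hx hq) hq), ht, ht, conj_mul, conj_mul, conj_mul, conj_mul,
    conj_mul, ← (h q hq).1, ← (h q hq).2]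
  constructor <;> group

theorem kill4 {t : G} {E W : Subgroup G} {θ : G → G} (hD : Dbl t E W) (hs : Sec t E W θ) (hE : E ≠ ⊥)
    (l : List (G × G)) (hl : ∀ v ∈ l, Act4 t E θ v.1 v.2 ∧ v.2 ∈ 𝐍[E])
    (hsw : ∀ p ∈ E, (l.foldr (fun v => phi4 v.2) (1, p)) = (l.foldr (fun v => phi4 v.2) (p, 1)).swap) :
    ∃ h, h * t = t * h ∧ ∀ p ∈ E, h * p * h⁻¹ = (l.foldr (fun v => phi4 v.2) (p, p)).1 := by
  obtain ⟨g, hg⟩ := fold hD hs l hl
  have k1 : ∀ p ∈ E, g * (t * θ p * t) * g⁻¹ = t * (g * θ p * g⁻¹) * t := fun p hp => by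
    obtain ⟨⟨a1, a2⟩, e1⟩ := hg (p, 1) hp (one_mem _)
    have e2 := (hg (1, p) (one_mem _) hp).2
    rw [hsw p hp, ← Φ_swap hD hs a1 a2, ← e1] at e2
    simpa only [Φ, θ_one hs, one_mul, mul_one, hD.tt] using e2
  have k2 : ∀ p ∈ E, Commute (g⁻¹ * t * g * t) (t * θ p * t) := fun p hp => by
    have := congrArg (fun y => g⁻¹ * y * (t * g * t)) (k1 p hp)
    simpa only [Commute, SemiconjBy, mul_assoc, sq_l hD.tt, inv_mul_cancel_left] using this.symm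
  have k3 : ∀ p ∈ E, Commute (g⁻¹ * t * g * t) (θ p) := fun p hp => by
    have := congrArg (fun y => g⁻¹ * (t * y * t) * (t * g * t)) (k1 p hp)
    simpa only [Commute, SemiconjBy, mul_assoc, sq_l hD.tt, inv_mul_cancel_left, hD.tt, mul_one] using this
  have k4 : ∀ d ∈ W, g⁻¹ * t * g * t * d = d * (g⁻¹ * t * g * t) := fun d hd => by
    have h1 := hD.mem d hd
    have h2 := hD.mul_mem_of_eq (hs.mem _ h1) hd (hs.ph _ h1)
    have h3 : d = θ (ph t d) * (θ (ph t d) * d) := (sq_l (hD.sq _ (hs.mem _ h1)) d).symm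
    rw [h3, ← diag hD hs h2]
    exact ((k3 _ h1).mul_right ((k3 _ h2).mul_right (k2 _ h2))).eq
  obtain ⟨c, hc, e⟩ := hD.exists_conj hE k4 (by simp only [mul_assoc, sq_l hD.tt, hD.tt, mul_inv_cancel_left,
    mul_one, inv_mul_cancel])
  have hh : g * c * t = t * (g * c) := by
    rw [mul_assoc (g⁻¹ * t * g), hD.tt, mul_one, mul_inv_eq_iff_eq_mul] at e
    rw [mul_assoc, e]
    group
  refine ⟨g * c, hh, fun p hp => ?_⟩
  obtain ⟨⟨a1, a2⟩, e1⟩ := hg (p, p) hp hp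
  have e2 : g * c * p * (g * c)⁻¹ = Φ t θ (l.foldr (fun v => phi4 v.2) (p, p)) := by
    rw [← e1, Φ, diag hD hs hp, mul_assoc g, hc p (hD.le hp)]
    group
  have e3 := ph_Φ hD hs a1 a2
  rw [← e2, ph_conj hh, hD.ph_V hp, mul_one, mul_inv_cancel] at e3
  rw [e2, Φ, ← hD.inv (hD.le a2), ← eq_inv_of_mul_eq_one_left e3.symm, diag hD hs a1]

end Cfsg.Agent.Wz
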