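import Mathlib
import Cfsg.Agent.Wz.EFL
import Cfsg.Agent.FG.ClassCount
import Cfsg.Agent.GT.Conj

/-! Squares in `Dt`, translations, and an orbit count. -/

set_option autoImplicit false

namespace Cfsg.Agent.Wz

open Cfsg.Agent.Loc.Mss Cfsg.Agent.Gold Cfsg.Agent.Wr Subgroup
open scoped commutatorElement

universe u

variable {G : Type u} [Group G] [Finite G]

namespace HS3

omit [Finite G] in
theorem exists_F {t : G} {V : Subgroup G} (h : Pre t V) : ∃ (Q : Type u) (_ : CommGroup Q) (F : G → Q),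
    (∀ a ∈ h.Dt, ∀ b ∈ h.Dt, F (a * b) = F a * F b) ∧ ∀ a ∈ h.Dt, F a = 1 ↔ a ∈ V := by
  classical
  haveI : (V.subgroupOf h.Dt).Normal := ⟨fun v hv g => by
    rw [mem_subgroupOf] at hv ⊢
    simpa [g.2.1 _ hv] using hv⟩
  let _ : CommGroup (h.Dt ⧸ V.subgroupOf h.Dt) :=
    { (inferInstance : Group (h.Dt ⧸ V.subgroupOf h.Dt)) with
      mul_comm := fun a b => by
        obtain ⟨a, rfl⟩ := QuotientGroup.mk_surjective a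
        obtain ⟨b, rfl⟩ := QuotientGroup.mk_surjective b
        rw [← QuotientGroup.mk_mul, ← QuotientGroup.mk_mul, QuotientGroup.eq, mem_subgroupOf]
        simpa [commutatorElement_def, mul_assoc] using h.comm_mem (inv_mem b.2) (inv_mem a.2) }
  refine ⟨h.Dt ⧸ V.subgroupOf h.Dt, inferInstance, fun g => if hg : g ∈ h.Dt then QuotientGroup.mk ⟨g, hg⟩ else 1,
    fun a ha b hb => ?_, fun a ha => ?_⟩
  · simp only [dif_pos ha, dif_pos hb, dif_pos (mul_mem ha hb)]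
    rfl
  · simp only [dif_pos ha, QuotientGroup.eq_one_iff, mem_subgroupOf]

omit [Finite G] in
theorem no_t {t : G} {V N : Subgroup G} (h : Pre t V) (hN : ∀ n ∈ N, n * t = t * n) (hV : N ≤ 𝐍[V]) {ρ : G}
    (hρ : ρ ∈ N) (h3 : ∀ r ∈ V, r * (ρ * r * ρ⁻¹) * (ρ * ρ * r * (ρ * ρ)⁻¹) = 1) (h3' : ρ ^ 3 = 1)
    (hn : ∀ n ∈ N, ∃ r ∈ V, n * ρ * n⁻¹ = ρ * r ∨ n * ρ * n⁻¹ = ρ⁻¹ * r) {n e v : G} (hnN : n ∈ N) (he : e ∈ h.Dt)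
    (hv : v ∈ V) : n * e * n⁻¹ ≠ e * t * v := fun E => by
  obtain ⟨Q, _, F, Fm, F1⟩ := exists_F h
  have cj : ∀ m ∈ N, ∀ d ∈ h.Dt, m * d * m⁻¹ ∈ h.Dt := fun m hm d hd => h.conj_mem (hN m hm) (hV hm) hd
  have hρ2 := mul_mem hρ hρ
  have e1 := cj ρ hρ e he
  have e2 := cj _ hρ2 e he
  have sD := mul_mem (mul_mem he e1) e2
  have Fc : ∀ m ∈ N, F (m * (e * t * v) * m⁻¹) = F (m * e * m⁻¹) * F t := fun m hm => by
    have k := conj_mem_of_norm (hV hm) hv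
    rw [← conj_mul, ← conj_mul, hN m hm, mul_inv_cancel_right, Fm _ (mul_mem (cj m hm e he) h.t_mem) _ (h.le_Dt k),
      Fm _ (cj m hm e he) _ h.t_mem, (F1 _ (h.le_Dt k)).2 k, mul_one]
  have tt : F t * F t = 1 := by rw [← Fm _ h.t_mem _ h.t_mem, h.tt, F1 _ (one_mem _)]; exact one_mem _
  have eD : e * t * v ∈ h.Dt := mul_mem (mul_mem he h.t_mem) (h.le_Dt hv)
  have k1 : F (e * t * v * (ρ * (e * t * v) * ρ⁻¹) * (ρ * ρ * (e * t * v) * (ρ * ρ)⁻¹)) =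
      F (e * (ρ * e * ρ⁻¹) * (ρ * ρ * e * (ρ * ρ)⁻¹)) * F t := by
    have := Fc 1 (one_mem _)
    simp only [one_mul, inv_one, mul_one] at this
    rw [Fm _ (mul_mem eD (cj ρ hρ _ eD)) _ (cj _ hρ2 _ eD), Fm _ eD _ (cj ρ hρ _ eD), this, Fc ρ hρ, Fc _ hρ2,
      Fm _ (mul_mem he e1) _ e2, Fm _ he _ e1]
    calc _ = F e * F (ρ * e * ρ⁻¹) * F (ρ * ρ * e * (ρ * ρ)⁻¹) * F t * (F t * F t) := by ac_rfl
      _ = _ := by rw [tt, mul_one]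
  have k2 : e * t * v * (ρ * (e * t * v) * ρ⁻¹) * (ρ * ρ * (e * t * v) * (ρ * ρ)⁻¹) ∈ V ↔
      e * (ρ * e * ρ⁻¹) * (ρ * ρ * e * (ρ * ρ)⁻¹) ∈ V := by
    obtain ⟨r, hr, hc⟩ := hn n⁻¹ (inv_mem hnN)
    have rc : ∀ d ∈ h.Dt, ∀ g : G, g * r * d * (g * r)⁻¹ = g * d * g⁻¹ := fun d hd g => by
      rw [mul_assoc g, ← hd.1 r hr]; group
    have e3 : n * e * n⁻¹ * (ρ * (n * e * n⁻¹) * ρ⁻¹) * (ρ * ρ * (n * e * n⁻¹) * (ρ * ρ)⁻¹) =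
        n * (e * (n⁻¹ * ρ * n⁻¹⁻¹ * e * (n⁻¹ * ρ * n⁻¹⁻¹)⁻¹) * (n⁻¹ * ρ * n⁻¹⁻¹ *
          (n⁻¹ * ρ * n⁻¹⁻¹ * e * (n⁻¹ * ρ * n⁻¹⁻¹)⁻¹) * (n⁻¹ * ρ * n⁻¹⁻¹)⁻¹)) * n⁻¹ := by group
    rw [← E, e3, ← mem_normalizer_iff.1 (hV hnN)]
    rcases hc with hc | hc
    · rw [hc, rc e he, rc _ e1, show ρ * (ρ * e * ρ⁻¹) * ρ⁻¹ = ρ * ρ * e * (ρ * ρ)⁻¹ by group]
    · have i1 : ρ⁻¹ = ρ * ρ := inv_eq_of_mul_eq_one_right (by rw [← h3', pow_succ', sq])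
      have i2 : ρ * ρ * (ρ * ρ * e * (ρ * ρ)⁻¹) * (ρ * ρ)⁻¹ = ρ * e * ρ⁻¹ := by
        rw [show ρ * ρ * (ρ * ρ * e * (ρ * ρ)⁻¹) * (ρ * ρ)⁻¹ = ρ * (ρ * ρ) * (ρ * e * ρ⁻¹) * (ρ * (ρ * ρ))⁻¹ by
          simp only [mul_inv_rev, mul_assoc], ← i1]
        simp
      rw [i1] at hc
      rw [hc, rc e he, rc _ e2, i2, ← F1 _ sD, ← F1 _ (mul_mem (mul_mem he e2) e1), Fm _ (mul_mem he e2) _ e1, Fm _ he _ e2,
        Fm _ (mul_mem he e1) _ e2, Fm _ he _ e1, mul_right_comm]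
  rw [← F1 _ sD, ← F1 _ (mul_mem (mul_mem eD (cj ρ hρ _ eD)) (cj _ hρ2 _ eD)), k1] at k2
  have k3 : F (e * (ρ * e * ρ⁻¹) * (ρ * ρ * e * (ρ * ρ)⁻¹)) = 1 := by
    rcases h.ker sD (by
      rw [h.mul (mul_mem he e1) e2, h.mul he e1, ph_conj (hN _ hρ), ph_conj (hN _ hρ2), h3 _ he.2]) with k | k
    · exact (F1 _ sD).2 k
    · exact k2.1 (by rw [← Fm _ sD _ h.t_mem, F1 _ (mul_mem sD h.t_mem)]; exact k)
  have k4 := k2.2 k3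
  rw [k3, one_mul, F1 _ h.t_mem] at k4
  exact h.nt k4

theorem not_dvd {t : G} {V : Subgroup G} (h : Pre t V) (hc : Nat.card V = 64) {p : ℕ} (hp : p.Prime) (h2 : p ≠ 2)
    (hm : ∀ k ≤ 5, ¬ 64 ≡ 2 ^ k [MOD p]) : ¬ p ∣ {w | w ∈ V ∧ ∃ g ∈ 𝐍[V], g * t * g⁻¹ = t * w}.ncard := fun hd => by
  haveI := Fact.mk hp
  let M : Subgroup G :=
    { carrier := {g | g ∈ 𝐍[V] ∧ ph t g ∈ V}
      one_mem' := ⟨one_mem _, by rw [ph_one h.tt]; exact one_mem _⟩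
      mul_mem' := fun {a b} ha hb => ⟨mul_mem ha.1 hb.1, by
        rw [ph_mul h.tt]; exact mul_mem (conj_mem_of_norm ha.1 hb.2) ha.2⟩
      inv_mem' := fun {a} ha => ⟨inv_mem ha.1, by
        have h1 := ph_mul h.tt a⁻¹ a
        rw [inv_mul_cancel, ph_one h.tt] at h1
        exact (mul_mem_cancel_left (conj_mem_of_norm (inv_mem ha.1) ha.2)).1 (h1 ▸ one_mem _)⟩ }
  have e1 : {y | ∃ g ∈ M, g * t * g⁻¹ = y} = (t * ·) '' {w | w ∈ V ∧ ∃ g ∈ 𝐍[V], g * t * g⁻¹ = t * w} := by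
    ext y
    constructor
    · rintro ⟨g, hg, rfl⟩
      have k : g * t * g⁻¹ = t * ph t g := by rw [conj_t h.tt, h.tV _ hg.2]
      exact ⟨ph t g, ⟨hg.2, g, hg.1, k⟩, k.symm⟩
    · rintro ⟨w, ⟨hw, g, hg, k⟩, rfl⟩
      refine ⟨g, ⟨hg, ?_⟩, k⟩
      rwa [ph, k, mul_assoc, h.tV w hw, ← mul_assoc, h.tt, one_mul]
  rw [← Set.ncard_image_of_injective _ (mul_right_injective t), ← e1, FG.ncard_conj_orbit_subgroup] at hd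
  obtain ⟨⟨g, hg⟩, ho⟩ := exists_prime_orderOf_dvd_card' (G := M) p (hd.trans (relIndex_dvd_card _ _))
  rw [orderOf_mk] at ho
  have k1 := GT.card_modEq_card_inf_centralizer (L := V) (Q := zpowers g) (p := p)
    (IsPGroup.of_card (n := 1) (by rw [Nat.card_zpowers, ho, pow_one])) (zpowers_le.2 hg.1)
  have k2 : Nat.card (V ⊓ 𝐂[zpowers g] : Subgroup G) ∣ 2 ^ 6 := by
    have := card_dvd_of_le (inf_le_left : V ⊓ 𝐂[zpowers g] ≤ V)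
    rwa [hc] at this
  obtain ⟨k, hk, e2⟩ := (Nat.dvd_prime_pow Nat.prime_two).1 k2
  rw [hc, e2] at k1
  obtain rfl : k = 6 := by by_contra hne; exact hm k (by omega) k1
  have e3 : V ⊓ 𝐂[zpowers g] = V := eq_of_le_of_card_ge inf_le_left (by rw [hc, e2]; rfl)
  have gD : g ∈ h.Dt := ⟨fun w hw => mem_cent.1 (e3.ge hw).2 g (mem_zpowers g), hg.2⟩
  have k4 : p ∣ 2 ^ 2 := ho ▸ orderOf_dvd_of_pow_eq_one (by
    rw [show g ^ 2 ^ 2 = g * g * (g * g) by norm_num [pow_succ, mul_assoc]]; exact h.sq _ (h.sq_mem gD))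
  exact h2 ((Nat.prime_dvd_prime_iff_eq hp Nat.prime_two).1 (hp.dvd_of_dvd_pow k4))

end HS3

/-- Squares in `Dt`, using a fixed point free element of order three. -/
theorem hs3 {t : G} {V N : Subgroup G} (h : Pre t V) (hN : ∀ n ∈ N, n * t = t * n) (hV : N ≤ 𝐍[V]) {ρ : G}
    (hρ : ρ ∈ N) (h3 : ∀ r ∈ V, r * (ρ * r * ρ⁻¹) * (ρ * ρ * r * (ρ * ρ)⁻¹) = 1) (h3' : ρ ^ 3 = 1)
    (hn : ∀ n ∈ N, ∃ r ∈ V, n * ρ * n⁻¹ = ρ * r ∨ n * ρ * n⁻¹ = ρ⁻¹ * r)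
    (hf : ∀ w ∈ V, w ≠ 1 → ∀ a ∈ V, (∀ n ∈ N, n * w = w * n → n * a = a * n) → a = 1 ∨ a = w) :
    ∀ e ∈ h.Dt, e * e = 1 ∨ e * e = ph t e := fun e he => by
  by_cases e0 : ph t e = 1
  · rcases h.ker he e0 with k | k
    · exact .inl (h.sq e k)
    · have k1 := h.sq _ k
      rw [h.sq_mul_t he, e0, mul_one] at k1
      exact .inl k1
  refine hf _ he.2 e0 _ (h.sq_mem he) fun n hn' hc => ?_
  rcases h.eq_cases he (h.conj_mem (hN n hn') (hV hn') he) (by rw [ph_conj (hN n hn'), hc, mul_inv_cancel_right]) with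
    ⟨v, hv, k⟩ | ⟨v, hv, k⟩
  · rw [← mul_inv_eq_iff_eq_mul, ← conj_mul, k, h.sq_mul_V he hv]
  · exact absurd k (HS3.no_t h hN hV hρ h3 h3' hn hn' he hv)

omit [Finite G] in
/-- Translations form an invariant subgroup. -/
theorem ho_of {t : G} {V N : Subgroup G} (h : Pre t V) (hN : ∀ n ∈ N, n * t = t * n) (hV : N ≤ 𝐍[V]) {d : G}
    (hd : d ∈ h.Dt) (hg : V ≤ closure {w | ∃ n ∈ N, n * ph t d * n⁻¹ = w}) : ∀ w ∈ V, ∃ e ∈ h.Dt, ph t e = w := by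
  intro w hw
  refine closure_induction (p := fun w _ => ∃ e ∈ h.Dt, ph t e = w) ?_ ⟨1, one_mem _, ph_one h.tt⟩ ?_ ?_ (hg hw)
  · rintro _ ⟨n, hn, rfl⟩
    exact ⟨_, h.conj_mem (hN n hn) (hV hn) hd, ph_conj (hN n hn) d⟩
  · rintro _ _ - - ⟨a, ha, rfl⟩ ⟨b, hb, rfl⟩
    exact ⟨_, mul_mem ha hb, h.mul ha hb⟩
  · rintro _ - ⟨a, ha, rfl⟩
    exact ⟨a, ha, (h.inv ha.2).symm⟩

/-- The orbit of `t` on the coset `t V`, `|V| = 64`, has neither 19 nor 46 elements. -/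
theorem orb64 {t : G} {V : Subgroup G} (h : Pre t V) (hc : Nat.card V = 64) :
    {w | w ∈ V ∧ ∃ g ∈ 𝐍[V], g * t * g⁻¹ = t * w}.ncard ≠ 19 ∧
      {w | w ∈ V ∧ ∃ g ∈ 𝐍[V], g * t * g⁻¹ = t * w}.ncard ≠ 46 :=
  ⟨fun e => HS3.not_dvd h hc (p := 19) (by norm_num) (by norm_num) (by decide) (by rw [e]),
    fun e => HS3.not_dvd h hc (p := 23) (by norm_num) (by norm_num) (by decide) (by rw [e]; norm_num)⟩

end Cfsg.Agent.Wz
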