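import Mathlib
import Cfsg.Agent.Wz.Defs

/-!
# The data for the O'Nan group
-/

set_option autoImplicit false

namespace Cfsg.Agent.Wz

open Cfsg.Agent.Loc.Mss Cfsg.Agent.Gold Cfsg.Agent.Wr Subgroup

universe u

/-- The homocyclic group `J = 4³` with `V = Ω₁(J)`. -/
structure OnJ {A : Type} [Group A] (z y x h σ k : A) (J V : Subgroup A) : Prop where
  z1 : z ≠ 1
  zz : z * z = 1
  yy : y * y = z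
  yJ : y ∈ J
  comm : ∀ a ∈ J, ∀ b ∈ J, a * b = b * a
  card : Nat.card J = 64
  memV : ∀ v, v ∈ V ↔ v ∈ J ∧ v * v = 1
  glV : ∀ ψ : A → A, (∀ v ∈ V, ψ v ∈ V) → (∀ v ∈ V, ∀ w ∈ V, ψ (v * w) = ψ v * ψ w) → (∀ v ∈ V, ψ v = 1 → v = 1) →
    ψ z = z → ∃ m ∈ 𝐍[J], ∀ v ∈ V, ψ v = m * v * m⁻¹
  endJ : ∀ ψ : A → A, (∀ j ∈ J, ψ j ∈ J) → (∀ a ∈ J, ∀ b ∈ J, ψ (a * b) = ψ a * ψ b) → (∀ v ∈ V, ψ v = v) →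
    (∀ s ∈ 𝐍[J] ⊓ C1 z, (∀ j ∈ J, ψ (s * j * s⁻¹) = s * ψ j * s⁻¹) ∨ ∀ j ∈ J, ψ (s * j * s⁻¹) = s * (ψ j)⁻¹ * s⁻¹) →
    (∀ j ∈ J, ψ j = j) ∨ ∀ j ∈ J, ψ j = j⁻¹
  σN : σ ∈ 𝐍[J]
  σ7 : σ ^ 7 ∈ J
  rel : ∀ v ∈ V, v * (σ * v * σ⁻¹) * (σ ^ 3 * v * (σ ^ 3)⁻¹) = 1
  orb : ∀ v ∈ V, v ≠ 1 → ∃ i : ℕ, σ ^ i * z * (σ ^ i)⁻¹ = v
  hN : h ∈ 𝐍[J]
  hy : h ∈ C1 y
  h3 : h ^ 3 = 1
  sqx : ∃ n ∈ 𝐍[J], ∃ j ∈ J, x = n * n * j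
  kN : k ∈ 𝐍[J]
  ky : k ∈ C1 y
  kk : k * k ∈ J
  kv : ∃ v ∈ V, k * v * k⁻¹ = v * z
  nrm : ∀ j ∈ J, j * (k * j * k⁻¹) ≠ y ∧ j * (k * j * k⁻¹) ≠ y⁻¹

/-- The group `Q = 4 ∘ 2^(1+4)` and its normaliser `P` in the centraliser of `y`. -/
structure OnQ {A : Type} [Group A] (z y x : A) (T V Q P : Subgroup A) : Prop where
  QT : Q ≤ T ⊓ C1 y
  yQ : y ∈ Q
  QP : Q ≤ P
  PQ : P ≤ 𝐍[Q]
  Py : P ≤ C1 y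
  genP : ∀ K : Subgroup A, Q ≤ K → (∀ g ∈ P, Odd (orderOf g) → g ∈ K) → P ≤ K
  xT : x ∈ T
  xy : x * y * x⁻¹ = y⁻¹
  genM : C1 y ≤ P ⊔ cj(x, P)
  cm : ∀ a ∈ Q, ∀ b ∈ Q, a * b = b * a ∨ a * b = b * a * z
  toV : ∀ a ∈ Q, a * a = 1 → a ≠ 1 → a ≠ z → ∃ l ∈ C1 z, l * a * l⁻¹ ∈ V
  ny : C1 z ≤ 𝐍[zpowers y]
  der : ⁅C1 z, C1 z⁆ = C1 y

/-- Automorphisms. -/
structure OnA {A : Type} [Group A] (y : A) (J V Q : Subgroup A) : Prop where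
  cenV : ∀ φ : MulAut A, (∀ v ∈ V, φ v = v) → (∀ j ∈ J, φ j = j) ∨ ∀ j ∈ J, φ j = j⁻¹
  cenJ : ∀ φ : MulAut A, (∀ j ∈ J, φ j = j) → ∃ j ∈ J, φ = MulAut.conj j
  cenQ : ∀ φ : MulAut A, (∀ q ∈ Q, φ q = q) → φ ∈ zpowers (MulAut.conj y : MulAut A)

/-- Automorphisms of subgroups. -/
structure OnR {A : Type} [Group A] (y h : A) (T J : Subgroup A) : Prop where
  JT : J ≤ T ⊓ C1 y
  char : ∀ ψ : (T ⊓ C1 y : Subgroup A) ≃* (T ⊓ C1 y : Subgroup A), ∀ j : (T ⊓ C1 y : Subgroup A),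
    (j : A) ∈ J → (ψ j : A) ∈ J
  rig : ∀ ψ : C1 y ≃* C1 y, (∀ j : C1 y, (j : A) ∈ J → ψ j = j) → (∀ j : C1 y, (j : A) = h → ψ j = j) →
    ∀ q : C1 y, (q : A) ∈ T → ψ q = q

/-- A pair of involutions of `Q` which do not commute and are interchanged in `P`. -/
def OnB {A : Type} [Group A] (Q P : Subgroup A) (a b : A) : Prop :=
  a ∈ Q ∧ b ∈ Q ∧ a * a = 1 ∧ b * b = 1 ∧ a * b ≠ b * a ∧ ∃ g ∈ P, g * a * g⁻¹ = b ∧ g * b * g⁻¹ = a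

/-- All data used in the climb. -/
structure OnD (A : Type) [Group A] where
  (z y x h σ k : A)
  (T J V Q P : Subgroup A)
  j : OnJ z y x h σ k J V
  q : OnQ z y x T V Q P
  a : OnA y J V Q
  r : OnR y h T J
  gen : Gen z (OnB Q P) fun _ _ => False

/-- An involution over `z` centralised by `C(y)`. -/
structure OnZ {A : Type} [Group A] (s : OnD A) {H : Type u} [Group H] (c : Co s.z H) (ζ : H) : Prop where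
  sq : ζ * ζ = 1
  ph : ph c.t ζ = c.ι s.z
  cen : ∀ m ∈ C1 s.y, ζ * c.ι m = c.ι m * ζ

end Cfsg.Agent.Wz
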