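import Mathlib
import Cfsg.Agent.Wz.Defs
import Cfsg.Agent.UT.Cov

/-!
# The data for the Suzuki group
-/

set_option autoImplicit false

namespace Cfsg.Agent.Wz

open Cfsg.Agent.Loc.Mss Cfsg.Agent.Gold Cfsg.Agent.Wr Subgroup
open Cfsg.Agent.UT (Cov)

universe u

/-- The group `V = 2^4` inside the centraliser of `y`, with `N` inducing `A₆` on it. -/
structure SzH {A : Type} [Group A] (z y : A) (V N : Subgroup A) : Prop where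
  zV : z ∈ V
  z1 : z ≠ 1
  sq : ∀ v ∈ V, v * v = 1
  card : Nat.card V = 16
  Vy : V ≤ C1 y
  cen : ∀ φ : MulAut A, φ y = y → (∀ v ∈ V, φ v = v) → ∃ v ∈ V, ∃ i : ℕ, φ = MulAut.conj (v * y ^ i)
  Ny : N ≤ C1 y
  NV : N ≤ 𝐍[V]
  trans : ∀ v ∈ V, v ≠ 1 → ∃ n ∈ N, n * v * n⁻¹ = z
  h3 : ∀ w ∈ V, (∀ n ∈ N, n * z = z * n → n * w * n⁻¹ = w ∨ n * w * n⁻¹ = w * z) → w = 1 ∨ w = z
  line : ∀ a ∈ V, ∀ b ∈ V, a ≠ 1 → b ≠ 1 → a ≠ b → ∃ s ∈ N, s * a * s⁻¹ = b ∧ s * b * s⁻¹ = a * b ∧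
    s ^ 3 ∈ zpowers y ∧ ∀ v ∈ V, s * v = v * s → v = 1

/-- The group `D = 2^(4+6)`. -/
structure SzC {A : Type} [Group A] (y : A) (T V D N : Subgroup A) : Prop where
  char : ∀ ψ : T ≃* T, ∀ v : T, (v : A) ∈ V → (ψ v : A) ∈ V
  VT : V ≤ T
  TV : T ≤ 𝐍[V]
  eqD : D = T ⊓ 𝐂[V]
  idx : D.relIndex T = 8
  cenV : ∀ g ∈ 𝐂[V], ∃ x ∈ D, ∃ i : ℕ, g = x * y ^ i
  yD : y ∈ 𝐍[D]
  ND : N ≤ 𝐍[D]
  gen : D ≤ closure {w | ∃ x ∈ D, w = x⁻¹ * (y * x * y⁻¹)}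
  cm : ∀ a ∈ D, ∀ b ∈ D, a * b * a⁻¹ * b⁻¹ ∈ V
  irr : ∀ Y : Subgroup A, V ≤ Y → Y ≤ D → N ≤ 𝐍[Y] → Y = V ∨ Y = D

/-- The pair `V`, `V'`. -/
structure SzE {A : Type} [Group A] (y : A) (V V' : Subgroup A) : Prop where
  cm : ∀ e ∈ V, ∀ x ∈ V', e * x * e * x ∈ V ⊓ V'
  cE : ∀ e ∈ V, ∀ x ∈ V', e * x = x * e → e ∈ V' ∨ x ∈ V
  cU : ∀ φ : MulAut A, φ y = y → (∀ u ∈ V ⊓ V', φ u = u) → (∃ j ∈ V ⊔ V', ∃ i : ℕ, φ = MulAut.conj (j * y ^ i)) ∨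
    ((∀ v ∈ V, φ v ∈ V') ∧ ∀ v ∈ V', φ v ∈ V)
  neE : ∃ e ∈ V, ∃ x ∈ V', ∃ x' ∈ V', e ∉ V' ∧ x ∉ V ∧ x' ∉ V ∧ x * x' ∉ V
  neF : ∃ x ∈ V', ∃ e ∈ V, ∃ e' ∈ V, x ∉ V ∧ e ∉ V' ∧ e' ∉ V' ∧ e * e' ∉ V'

/-- Biadditive equivariant maps and the word excluding the twisted action. -/
structure SzG {A : Type} [Group A] (y r s : A) (V V' N : Subgroup A) : Prop where
  bil : ∀ γ : A → A → A, (∀ a ∈ V, ∀ b ∈ V', γ a b ∈ V ⊓ V') →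
    (∀ a ∈ V, ∀ a' ∈ V, ∀ b ∈ V', γ (a * a') b = γ a b * γ a' b) →
    (∀ a ∈ V, ∀ b ∈ V', ∀ b' ∈ V', γ a (b * b') = γ a b * γ a b') →
    (∀ a ∈ V ⊓ V', ∀ b ∈ V', γ a b = 1) → (∀ a ∈ V, ∀ b ∈ V ⊓ V', γ a b = 1) →
    (∀ a ∈ V, ∀ b ∈ V', γ (r * a * r⁻¹) (r * b * r⁻¹) = r * γ a b * r⁻¹) →
    (∀ a ∈ V, ∀ b ∈ V', γ (s * a * s⁻¹) (s * b * s⁻¹) = s * γ a b * s⁻¹) →
    (∀ a ∈ V, ∀ b ∈ V', γ a b = 1) ∨ ∀ a ∈ V, ∀ b ∈ V', γ a b = a * b * a * b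
  word : ∃ l : List (A × A), (∀ v ∈ l, v.1 ∈ N ∧ v.2 ∈ V') ∧
    (∀ p ∈ V, (l.foldr (fun v => phi4 (v.1 * v.2 * v.1⁻¹)) (1, p)) =
      (l.foldr (fun v => phi4 (v.1 * v.2 * v.1⁻¹)) (p, 1)).swap) ∧
    ∀ φ : MulAut A, φ y = y → ∃ p ∈ V, φ p ≠ (l.foldr (fun v => phi4 (v.1 * v.2 * v.1⁻¹)) (p, p)).1

/-- All data used in the climb. -/
structure SzD (A : Type) [Group A] where
  (z q r s y d : A)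
  (T V V' D N Q : Subgroup A)
  y3 : y ^ 3 = 1
  y1 : y ≠ 1
  h : SzH z y V N
  c : SzC y T V D N
  e : SzE y V V'
  g : SzG y r s V V' N
  dy : d * y * d⁻¹ = y⁻¹
  dz : d * z = z * d
  dV : cj(d, V) = V'
  syl : Syl 2 T (C1 z)
  Tgen : T ≤ D ⊔ V' ⊔ zpowers r
  qU : q ∈ V ⊓ V'
  rr : r * r = 1
  rq : q * (r * q * r⁻¹) = z
  rn : r ∈ C1 y ⊓ 𝐍[V] ⊓ 𝐍[V']
  sn : s ∈ C1 y ⊓ 𝐍[V] ⊓ 𝐍[V']
  QT : Q ≤ T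
  nQ : C1 z ≤ 𝐍[Q]
  cenQ : ∀ φ : MulAut A, (∀ a ∈ Q, φ a = a) → φ ∈ zpowers (MulAut.conj z : MulAut A)
  odd : ∀ φ : MulAut A, Odd (orderOf φ) → φ ∈ inn A
  gen : Gen z (fun a b => a ≠ 1 ∧ b ≠ 1 ∧ (a ∈ V ∨ a ∈ V') ∧ (b ∈ V ∨ b ∈ V')) fun _ _ => False

/-- The quotient of the centraliser of `ι y` by `⟨ι y⟩`. -/
structure Rq {A : Type} [Group A] {z : A} {H : Type u} [Group H] (c : Co z H) (y : A) (G : Type u) [Group G] where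
  cv : Cov H G
  hM : cv.M = C1 (c.ι y)
  hW : cv.W = zpowers (c.ι y)

namespace Rq

variable {A : Type} [Group A] {z : A} {H : Type u} [Group H] {c : Co z H} {y : A} {G : Type u} [Group G] (k : Rq c y G)

/-- The image of `t`. -/
def t : G := k.cv.f c.t
/-- The image of an element of `C_A(y)`. -/
def j (a : A) : G := k.cv.f (c.ι a)
/-- The image of a subgroup of `C_A(y)`. -/
def im (X : Subgroup A) : Subgroup G := k.cv.img (X.map c.ι)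

end Rq

end Cfsg.Agent.Wz
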